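import Cfsg.Agent.Blocks.OneSimple.Block
import Cfsg.Agent.Blocks.Subsection.SmallDefect
import Cfsg.Agent.Blocks.KleinFour.Rank
import Cfsg.Agent.Blocks.Defect.CentralRankOne
import Cfsg.Agent.Blocks.Defect.Nilpotent
import Cfsg.Agent.Blocks.Orth.DegreeSquares
import Mathlib.GroupTheory.SpecificGroups.KleinFour

/-!
# Blocks with one Brauer character and at most four characters
-/

set_option autoImplicit false
set_option linter.style.haveILetI false
open Cfsg

namespace CfsgLib.Blocks.OneSimple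

open CfsgLib.Blocks CfsgLib.Blocks.KleinFour

universe u

variable {G : Type u} [Group G] [Fintype G] {p : ℕ} [Fact p.Prime] {M : Ideal AlgInt} [M.IsMaximal]
  [CharP (kres M) p]

/-- A block with one Brauer character and at most four characters has `p ^ d = k(B)`. -/
theorem pow_defect_eq_card (hM : IsPModular p M) {B : Set (IrrCharacter G)} (hB : IsPBlock M B)
    {D : Subgroup G} (hD : IsDefectGroup p M B D) (hl : blockRank p B = 1) (hk : Nat.card B ≤ 4) :
    p ^ blockDefect p B = Nat.card B := by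
  have hp := hM.1
  obtain ⟨n, hn, hsum, hdvd⟩ := exists_dims_block hM hB hl hk
  have hk0 : Nat.card B ≠ 0 := by
    obtain ⟨χ, hχ⟩ := nonempty_of_isPBlock hB
    haveI : Nonempty B := ⟨⟨χ, hχ⟩⟩
    exact Nat.card_pos.ne'
  set a := (Nat.card G).factorization p with ha
  set d := blockDefect p B with hd
  have hDcard := Contrib.natCard_defectGroup hM hB hD
  have hmin := minExp_add_of_defectGroup hM hB hD
  rw [hDcard, HeightZero.factorization_pow_prime hp] at hmin
  have hfac := (factorization_sum_degree_sq hM hB).2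
  rw [hsum, Nat.factorization_mul (pow_ne_zero _ hn) hk0, Nat.factorization_pow, Finsupp.add_apply,
    Finsupp.smul_apply, smul_eq_mul] at hfac
  let P : Sylow p G := default
  have hP := hdvd (P : Subgroup G) P.isPGroup'
  rw [P.card_eq_multiplicity] at hP
  have hle := (hp.pow_dvd_iff_le_factorization (mul_ne_zero hn hk0)).mp hP
  rw [Nat.factorization_mul hn hk0, Finsupp.add_apply] at hle
  have hdvk : p ^ d ∣ Nat.card B :=
    (hp.pow_dvd_iff_le_factorization hk0).mpr (by omega)
  have hle4 := (Nat.le_of_dvd (Nat.pos_of_ne_zero hk0) hdvk).trans hk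
  have hd2 : d ≤ 2 := by
    by_contra h
    have h8 : 2 ^ 3 ≤ p ^ d :=
      (Nat.pow_le_pow_left hp.two_le 3).trans (Nat.pow_le_pow_right hp.pos (by omega))
    omega
  exact le_antisymm (Nat.le_of_dvd (Nat.pos_of_ne_zero hk0) hdvk)
    (Contrib.natCard_le_of_defect_le_two hM hB hd2)

variable {P : Subgroup G}

omit [M.IsMaximal] [CharP (kres M) p] [Fact p.Prime] [Fintype G] in
/-- An element of odd relative index whose square centralizes. -/
theorem mem_of_sq_mem {C T : Subgroup G} (hCn : T ≤ Subgroup.normalizer (C : Set G))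
    (hodd : ¬ 2 ∣ C.relIndex T) {t : G} (ht : t ∈ T) (h2 : t ^ 2 ∈ C) : t ∈ C := by
  haveI : (C.subgroupOf T).Normal := by
    refine ⟨fun m hm x => ?_⟩
    rw [Subgroup.mem_subgroupOf] at hm ⊢
    simp only [Subgroup.coe_mul, Subgroup.coe_inv]
    exact (Subgroup.mem_normalizer_iff.1 (hCn x.2) _).1 hm
  have he : t ^ C.relIndex T ∈ C := by
    have := Subgroup.pow_index_mem (C.subgroupOf T) (⟨t, ht⟩ : T)
    rw [Subgroup.mem_subgroupOf] at this
    exact this
  obtain ⟨j, hj⟩ : ∃ j, C.relIndex T = 2 * j + 1 := ⟨C.relIndex T / 2, by omega⟩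
  rw [hj, pow_succ, pow_mul] at he
  exact (Subgroup.mul_mem_cancel_left C (pow_mem h2 j)).1 he

/-- Such a block has trivial inertial quotient. -/
theorem pairStab_le_centralizer (hM : IsPModular p M) {B : Set (IrrCharacter G)} (hB : IsPBlock M B)
    (hD : IsDefectGroup p M B P) (hl : blockRank p B = 1) (hk : Nat.card B ≤ 4)
    (hd0 : blockDefect p B ≠ 0) {g : MonoidAlgebra (kres M) G}
    (hmax : IsMaxPairIdem p ⊤ (topEl M B) P g) :
    pairStab ⊤ P g ≤ Subgroup.centralizer (P : Set G) := by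
  classical
  have hp := hM.1
  have he := isBlockIdem_topEl (M := M) hB
  have hpd := pow_defect_eq_card hM hB hD hl hk
  have hPcard : Nat.card P = Nat.card B := (Contrib.natCard_defectGroup hM hB hD).trans hpd
  set d := blockDefect p B
  have hdd : d = 1 ∨ d = 2 := by
    by_contra h
    have h8 : 2 ^ 3 ≤ p ^ d :=
      (Nat.pow_le_pow_left hp.two_le 3).trans (Nat.pow_le_pow_right hp.pos (by omega))
    omega
  have hab : ∀ x ∈ P, ∀ y ∈ P, x * y = y * x := by
    intro x hx y hy
    rw [← hpd] at hPcard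
    rcases hdd with h | h <;> rw [h] at hPcard
    · rw [pow_one] at hPcard
      haveI := isCyclic_of_prime_card (α := P) hPcard
      let := IsCyclic.commGroup (α := P)
      exact congrArg Subtype.val (mul_comm (⟨x, hx⟩ : P) ⟨y, hy⟩)
    · exact congrArg Subtype.val
        (IsPGroup.commutative_of_card_eq_prime_sq hPcard ⟨x, hx⟩ ⟨y, hy⟩)
  set T := pairStab ⊤ P g with hT
  set C := Subgroup.centralizer (P : Set G) with hC
  have hPC : P ≤ C := le_centralizer_of_abelian hab le_rfl
  have hTN : T ≤ Subgroup.normalizer (P : Set G) := pairStab_le_normalizer _ _ _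
  have hCT : C ≤ T := centralizer_le_pairStab hmax.1.1
  have hTC : T ≤ Subgroup.normalizer (C : Set G) := hTN.trans (normalizer_le_normalizer_centralizer P)
  have hmove : ∀ t ∈ T, ∀ v ∈ P, t * v * t⁻¹ ∈ P := fun t ht v hv =>
    (Subgroup.mem_normalizer_iff.1 (hTN ht) v).1 hv
  have hndvd : ¬ p ∣ C.relIndex T := by
    have hD' := isDefectGroupIdem_pairStab_self he hmax
    rw [inf_eq_left.mpr (Subgroup.le_normalizer (H := P))] at hD'
    have hgb : IsBlockIdem C g := by
      have := hmax.1.1.2.2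
      rwa [top_inf_eq] at this
    have h := not_dvd_relIndex_sup_defectGroup hCT hTC hgb hmax.1.1.isBlockIdem_pairStab hD'
    rwa [sup_eq_left.2 hPC] at h
  rw [← hpd] at hk
  by_cases hp2 : p = 2
  · subst hp2
    intro t ht
    by_cases hV : IsKleinFour P
    · obtain ⟨h4, hrank⟩ := natCard_and_rank hM hB hD hV hmax
      rw [hl] at hrank
      exact Subgroup.relIndex_eq_one.1 hrank.symm ht
    refine mem_of_sq_mem hTC hndvd ht ?_
    have hcyc : IsCyclic P := by
      rw [← hpd] at hPcard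
      rcases hdd with h | h <;> rw [h] at hPcard
      · exact isCyclic_of_prime_card (p := 2) (by simpa using hPcard)
      · by_contra hnc
        apply hV
        refine ⟨by simpa using hPcard, ?_⟩
        haveI : Nontrivial P := Finite.one_lt_card_iff_nontrivial.1 (by rw [hPcard]; norm_num)
        refine (Monoid.exponent_eq_prime_iff (G := P) Nat.prime_two).mpr ?_
        intro v hv1
        have hdvd := orderOf_dvd_natCard v
        rw [hPcard] at hdvd
        obtain ⟨i, hi, hio⟩ := (Nat.dvd_prime_pow Nat.prime_two).1 hdvd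
        interval_cases i
        · exact absurd (orderOf_eq_one_iff.1 (by simpa using hio)) hv1
        · simpa using hio
        · exact absurd (isCyclic_of_orderOf_eq_card v (by rw [hio, hPcard])) hnc
    obtain ⟨⟨v, hv⟩, hgen⟩ := IsCyclic.exists_generator (α := P)
    have hgen' : ∀ u ∈ P, ∃ i : ℤ, v ^ i = u := fun u hu => by
      obtain ⟨i, hi⟩ := hgen ⟨u, hu⟩
      exact ⟨i, congrArg Subtype.val hi⟩
    have hord : orderOf v = Nat.card P := by
      rw [← Subgroup.orderOf_mk v hv, orderOf_eq_card_of_forall_mem_zpowers hgen]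
    -- `t ^ 2` fixes the generator
    have hfix : t * (t * v * t⁻¹) * t⁻¹ = v := by
      obtain ⟨i, hi⟩ := hgen' _ (hmove t ht v hv)
      rw [← hi, ← conj_zpow, ← hi, ← zpow_mul]
      have hov : orderOf (v ^ i) = orderOf v := by
        rw [hi]
        exact orderOf_injective (MulAut.conj t).toMonoidHom (MulAut.conj t).injective v
      have h4 : (orderOf v : ℤ) ∣ i * i - 1 := by
        have hdvd : orderOf v ∣ 4 := by
          rw [hord, hPcard, ← hpd]
          rcases hdd with h | h <;> rw [h] <;> norm_num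
        have hiodd : ¬ (2 : ℤ) ∣ i := by
          rintro ⟨j, rfl⟩
          rw [zpow_mul, zpow_ofNat] at hov
          have h1 : orderOf ((v ^ 2) ^ j) ∣ orderOf (v ^ 2) :=
            orderOf_dvd_of_mem_zpowers ⟨j, rfl⟩
          rw [hov, orderOf_pow] at h1
          rw [hord, hPcard, ← hpd] at h1
          rcases hdd with h | h <;> rw [h] at h1 <;> norm_num at h1
        refine (Int.natCast_dvd_natCast.2 hdvd).trans ?_
        obtain ⟨j, hj⟩ : ∃ j, i = 2 * j + 1 := ⟨i / 2, by omega⟩
        exact ⟨j * (j + 1), by rw [hj]; push_cast; ring⟩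
      exact (orderOf_dvd_sub_iff_zpow_eq_zpow.1 h4).trans (zpow_one v)
    rw [hC, Subgroup.mem_centralizer_iff]
    intro u hu
    obtain ⟨i, rfl⟩ := hgen' u hu
    have : t ^ 2 * v * (t ^ 2)⁻¹ = v := by
      calc t ^ 2 * v * (t ^ 2)⁻¹ = t * (t * v * t⁻¹) * t⁻¹ := by rw [pow_two]; group
        _ = v := hfix
    calc v ^ i * t ^ 2 = (t ^ 2 * v * (t ^ 2)⁻¹) ^ i * t ^ 2 := by rw [this]
      _ = t ^ 2 * v ^ i := by rw [conj_zpow, inv_mul_cancel_right]
  -- the prime three
  have hp3 : p = 3 ∧ d = 1 := by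
    have h3 : 3 ≤ p := by have := hp.two_le; omega
    rcases hdd with h | h
    · rw [h, pow_one] at hk
      refine ⟨?_, h⟩
      by_contra h'
      have : p = 4 := by omega
      exact absurd (this ▸ hp) (by norm_num)
    · rw [h] at hk
      have := Nat.pow_le_pow_left h3 2
      omega
  obtain ⟨rfl, hd1⟩ := hp3
  rw [hd1, pow_one] at hpd
  rw [← hpd] at hPcard
  intro t ht
  by_contra htC
  obtain ⟨u, hu, hut⟩ : ∃ u ∈ P, t * u * t⁻¹ ≠ u := by
    by_contra hcon
    simp only [not_exists, not_and, not_not] at hcon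
    exact htC (Subgroup.mem_centralizer_iff.2 fun u hu => (mul_inv_eq_iff_eq_mul.1 (hcon u hu)).symm)
  have hu1 : u ≠ 1 := fun h => hut (by rw [h]; group)
  have htu1 : t * u * t⁻¹ ≠ 1 := fun h => hu1 (conj_eq_one_iff.1 h)
  obtain ⟨X, hX, hXrep, hXc⟩ := exists_reps (G := G) 3
  set Z : Finset G := {1} with hZd
  have hsub : ∀ y ∈ X, y ∉ Z → ∀ b, IsInducedBlock M (Subgroup.centralizer ({y} : Set G)) b B →
      blockRank 3 b = 1 := by
    intro y hy hyZ b hb
    rw [hZd, Finset.mem_singleton] at hyZ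
    obtain ⟨w, hle, -⟩ := exists_maxPair_above hM hB hmax (hX y hy) hb
    have habw : ∀ r ∈ P.map (MulAut.conj w).toMonoidHom, ∀ s ∈ P.map (MulAut.conj w).toMonoidHom,
        r * s = s * r := by
      rintro _ ⟨r, hr, rfl⟩ _ ⟨s, hs, rfl⟩
      rw [← map_mul, ← map_mul, hab r hr s hs]
    obtain ⟨-, hbD⟩ := maxPair_centralizer he (isMaxPairIdem_conj he hmax w) habw hle
    rw [HeightZero.centralizer_zpowers_eq] at hbD
    have hbD' := (isDefectGroup_subgroupOf_iff hbD.1 hb.1).2 hbD
    have hzy : Subgroup.zpowers y = P.map (MulAut.conj w).toMonoidHom := by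
      refine Subgroup.eq_of_le_of_card_ge hle.le ?_
      rw [card_map_conj, hPcard, Nat.card_zpowers]
      obtain ⟨e, he'⟩ := hX y hy
      rw [he']
      refine Nat.le_of_dvd (by positivity) (dvd_pow_self 3 fun h => hyZ ?_)
      rw [h, pow_zero] at he'
      exact orderOf_eq_one_iff.1 he'
    refine blockRank_eq_one_of_central_defect hM hb.1 ?_ hbD'
    intro r hr
    rw [Subgroup.mem_center_iff]
    intro h
    refine Subtype.ext ?_
    have hr' : (r : G) ∈ Subgroup.zpowers y := by rw [hzy]; exact hr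
    obtain ⟨i, hi⟩ := hr'
    simp only at hi
    push_cast
    rw [← hi]
    exact ((Commute.zpow_right (Subgroup.mem_centralizer_singleton_iff.1 h.2) i)).eq
  have hZ : ∀ z ∈ Z, z ∈ Subgroup.center G ∧ ∃ e : ℕ, orderOf z = 3 ^ e := fun z hz => by
    rw [Finset.mem_singleton.1 hz]
    exact ⟨one_mem _, 0, by simp⟩
  have hkB := natCard_eq_add hM hB Z hZ X hX hXrep
    (fun z hz => hXc z (hZ z hz).1 (hZ z hz).2) hsub
  rw [hl, show Z.card = 1 by simp [hZd], one_mul, ← hpd] at hkB
  obtain ⟨Φ, hΦs, hΦ⟩ := exists_subsection_map hM hB hmax hab X hX hXrep (fun v => v ∉ Z)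
    (fun a v => by simp [hZd])
  have hP3 : ∀ v ∈ P, v = 1 ∨ v = u ∨ v = t * u * t⁻¹ := by
    intro v hv
    haveI := Fintype.ofFinite P
    by_contra hcon
    simp only [not_or] at hcon
    have hcard : ({⟨1, one_mem P⟩, ⟨u, hu⟩, ⟨_, hmove t ht u hu⟩, ⟨v, hv⟩} : Finset P).card = 4 := by
      simp [Ne.symm hu1, Ne.symm htu1, Ne.symm hut, Ne.symm hcon.1, Ne.symm hcon.2.1, Ne.symm hcon.2.2]
    have := Finset.card_le_univ ({⟨1, one_mem P⟩, ⟨u, hu⟩, ⟨_, hmove t ht u hu⟩, ⟨v, hv⟩} : Finset P)
    rw [hcard, ← Nat.card_eq_fintype_card, hPcard] at this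
    omega
  have huZ : u ∉ Z := by simp [hZd, hu1]
  have hall : ∀ s, Φ s = Φ ⟨u, hu, huZ⟩ := by
    rintro ⟨v, hv, hvZ⟩
    rcases hP3 v hv with rfl | rfl | rfl
    · exact absurd (by simp [hZd]) hvZ
    · rfl
    · exact ((hΦ _ _).2 ⟨t, ht, rfl⟩).symm
  have hone := (Nat.card_eq_one_iff_unique (α :=
      (Σ x : {x : G // x ∈ X ∧ x ∉ Z},
        {b : Set (IrrCharacter (Subgroup.centralizer ({(x : G)} : Set G))) //
          IsInducedBlock M (Subgroup.centralizer ({(x : G)} : Set G)) b B}))).2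
    ⟨⟨fun a b => by
      obtain ⟨a', rfl⟩ := hΦs a
      obtain ⟨b', rfl⟩ := hΦs b
      rw [hall a', hall b']⟩, ⟨Φ ⟨u, hu, huZ⟩⟩⟩
  omega

end CfsgLib.Blocks.OneSimple
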