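import Mathlib.Algebra.Algebra.Operations
import Mathlib.LinearAlgebra.FiniteDimensional.Lemmas
import Mathlib.LinearAlgebra.Dimension.Finrank
import Mathlib.LinearAlgebra.Quotient.Basic
import Mathlib.Tactic.LinearCombination

/-!
# A nilpotent algebra with a form and few symmetric functionals is commutative
-/

set_option autoImplicit false

namespace CfsgLib.Blocks.OneSimple

open Module

variable {k : Type*} [Field k] {R : Type*} [Ring R] [Algebra k R]

/-- The span of the commutators of a subspace. -/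
def commOf (N : Submodule k R) : Submodule k R :=
  Submodule.span k (Set.range fun x : N × N => (x.1 : R) * x.2 - x.2 * x.1)

theorem sub_mem_commOf {N : Submodule k R} {a b : R} (ha : a ∈ N) (hb : b ∈ N) :
    a * b - b * a ∈ commOf N :=
  Submodule.subset_span ⟨(⟨a, ha⟩, ⟨b, hb⟩), rfl⟩

theorem commOf_le_mul (N : Submodule k R) : commOf N ≤ N * N := Submodule.span_le.mpr (by
  rintro _ ⟨⟨a, b⟩, rfl⟩
  exact sub_mem (Submodule.mul_mem_mul a.2 b.2) (Submodule.mul_mem_mul b.2 a.2))

theorem comm_of_commOf_eq_bot {N : Submodule k R} (h : commOf N = ⊥) :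
    ∀ a ∈ N, ∀ b ∈ N, a * b = b * a := fun a ha b hb => by
  have := sub_mem_commOf ha hb
  rw [h, Submodule.mem_bot, sub_eq_zero] at this
  exact this

/-- Two vectors satisfying the associativity relations vanish. -/
theorem eq_zero_of_assoc_relations {Q : Type*} [AddCommGroup Q] [Module k Q] {La Lb Ra Rb : Q}
    {α β γ : k} (h1 : α • Ra = (α - 1) • La) (h2 : (α - 1) • Rb = α • Lb) (h3 : β • Rb = α • La)
    (h4 : γ • Ra = (α - 1) • Lb) (h5 : α • Rb = γ • La) (h6 : (α - 1) • Ra = β • Lb)
    (h7 : β • Ra = β • La) (h8 : γ • Rb = γ • Lb) : La = 0 ∧ Lb = 0 := by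
  by_cases hα0 : α = 0
  · subst hα0
    simp only [zero_smul, zero_sub, neg_smul, one_smul] at h1 h2 h6
    have hLa : La = 0 := by rwa [eq_comm, neg_eq_zero] at h1
    have hRb : Rb = 0 := neg_eq_zero.mp h2
    refine ⟨hLa, ?_⟩
    simp only [zero_sub, neg_smul, one_smul] at h4
    rw [hLa, smul_zero] at h7
    rcases smul_eq_zero.mp h7 with hb | hb
    · rw [hb, zero_smul, neg_eq_zero] at h6
      rw [h6, smul_zero, eq_comm, neg_eq_zero] at h4
      exact h4
    · rw [hb, smul_zero, eq_comm, neg_eq_zero] at h4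
      exact h4
  by_cases hα1 : α = 1
  · subst hα1
    simp only [sub_self, zero_smul, one_smul] at h1 h2 h5 h3
    subst h1
    rw [← h2, smul_zero] at h8
    refine ⟨?_, h2.symm⟩
    rw [h5] at h8 h3
    rw [smul_smul] at h8 h3
    rcases smul_eq_zero.mp h8 with hg | hg
    · rw [(mul_self_eq_zero.mp hg), mul_zero, zero_smul] at h3
      exact h3.symm
    · exact hg
  have hα1' : α - 1 ≠ 0 := sub_ne_zero.mpr hα1
  have e : ((α - 1) * (α - 1)) • La = (α * (α - 1)) • La := by
    calc ((α - 1) * (α - 1)) • La = (α - 1) • (α • Ra) := by rw [h1, smul_smul]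
      _ = α • ((α - 1) • Ra) := smul_comm _ _ _
      _ = β • ((α - 1) • Rb) := by rw [h6, h2, smul_comm]
      _ = (α - 1) • (β • Rb) := smul_comm _ _ _
      _ = (α * (α - 1)) • La := by rw [h3, smul_smul, mul_comm]
  have hLa : La = 0 := by
    rw [← sub_eq_zero, ← sub_smul] at e
    rcases smul_eq_zero.mp e with h | h
    · exact absurd (show α - 1 = 0 by linear_combination -h) hα1'
    · exact h
  refine ⟨hLa, ?_⟩
  rw [hLa, smul_zero] at h1
  rw [(smul_eq_zero.mp h1).resolve_left hα0, smul_zero, eq_comm] at h4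
  exact (smul_eq_zero.mp h4).resolve_left hα1'

/-- The core: few symmetric functionals force commutativity. -/
theorem comm_of_finrank_le [FiniteDimensional k R] {N : Submodule k R} (hNN : N * N ≤ N)
    (hnil : ∃ L : ℕ, N ^ (L + 1) = ⊥) (t : R →ₗ[k] k)
    (ht : ∀ a ∈ N, ∀ b ∈ N, t (a * b) = t (b * a))
    (hnd : ∀ s ∈ N, s ≠ 0 → (∀ n ∈ N, s * n = 0) → t s ≠ 0)
    (hdim : finrank k N ≤ 3 + finrank k (commOf N)) : ∀ a ∈ N, ∀ b ∈ N, a * b = b * a := by
  classical
  have hdesc : ∀ i, N ^ (i + 2) ≤ N ^ (i + 1) := by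
    intro i
    induction i with
    | zero => rw [Submodule.pow_one, pow_two]; exact hNN
    | succ i ih =>
      rw [Submodule.pow_succ (n := i + 2), Submodule.pow_succ (n := i + 1)]
      exact mul_le_mul' ih le_rfl
  have hanti : ∀ i j, N ^ (i + 1 + j) ≤ N ^ (i + 1) := by
    intro i j
    induction j with
    | zero => exact le_rfl
    | succ j ih =>
      refine le_trans ?_ ih
      have := hdesc (i + j)
      rwa [show i + j + 2 = i + 1 + (j + 1) by omega, show i + j + 1 = i + 1 + j by omega] at this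
  have hvanish : ∀ i, N ^ (i + 1) ≤ N ^ (i + 2) → N ^ (i + 1) = ⊥ := by
    intro i hi
    have hall : ∀ j, N ^ (i + 1) ≤ N ^ (i + 1 + j) := by
      intro j
      induction j with
      | zero => exact le_rfl
      | succ j ih =>
        refine hi.trans ?_
        rw [← add_assoc, Submodule.pow_succ (n := i + 1), Submodule.pow_succ (n := i + 1 + j)]
        exact mul_le_mul' ih le_rfl
    obtain ⟨L, hL⟩ := hnil
    refine le_bot_iff.mp ((hall L).trans ?_)
    rw [show i + 1 + L = L + 1 + i by omega, ← hL]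
    exact hanti L i
  have htC : ∀ x ∈ commOf N, t x = 0 := by
    intro x hx
    induction hx using Submodule.span_induction with
    | mem x hx =>
      obtain ⟨⟨a, b⟩, rfl⟩ := hx
      simp only [map_sub, ht _ a.2 _ b.2, sub_self]
    | zero => exact map_zero t
    | add x y _ _ hx hy => rw [map_add, hx, hy, add_zero]
    | smul c x _ hx => rw [map_smul, hx, smul_zero]
  by_cases hcyc : ∃ x ∈ N, N ≤ Submodule.span k {x} ⊔ N * N
  · -- one generator
    obtain ⟨x, hxN, hN1⟩ := hcyc
    have hstep : ∀ i, N ^ (i + 1) ≤ Submodule.span k {x ^ (i + 1)} ⊔ N ^ (i + 2) := by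
      intro i
      induction i with
      | zero => rw [Submodule.pow_one, pow_one, pow_two]; exact hN1
      | succ i ih =>
        rw [Submodule.pow_succ (n := i + 1)]
        refine (mul_le_mul' ih hN1).trans ?_
        rw [Submodule.mul_sup, Submodule.sup_mul, Submodule.sup_mul, Submodule.span_mul_span,
          Set.singleton_mul_singleton, ← pow_succ]
        refine sup_le (sup_le le_sup_left (le_sup_of_le_right ?_)) (sup_le (le_sup_of_le_right ?_)
          (le_sup_of_le_right ?_))
        · rw [Submodule.pow_succ (n := i + 2)]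
          exact mul_le_mul' le_rfl ((Submodule.span_singleton_le_iff_mem _ _).mpr hxN)
        · rw [show i + 1 + 2 = i + 1 + 1 + 1 from rfl, Submodule.pow_succ (n := i + 1 + 1),
            Submodule.pow_succ (n := i + 1), mul_assoc]
          refine mul_le_mul' ?_ le_rfl
          rw [Submodule.span_singleton_le_iff_mem]
          exact Submodule.pow_mem_pow _ hxN _
        · refine le_trans (le_of_eq ?_) (hanti (i + 2) 1)
          rw [← pow_two, ← pow_add]
    set P : Submodule k R := Submodule.span k (Set.range fun i : ℕ => x ^ i) with hP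
    have hcover : ∀ i, N ≤ P ⊔ N ^ (i + 1) := by
      intro i
      induction i with
      | zero => rw [Submodule.pow_one]; exact le_sup_right
      | succ i ih =>
        refine ih.trans (sup_le le_sup_left ((hstep i).trans (sup_le_sup_right ?_ _)))
        exact Submodule.span_mono (Set.singleton_subset_iff.mpr ⟨i + 1, rfl⟩)
    obtain ⟨L, hL⟩ := hnil
    have hNP : N ≤ P := by
      have := hcover L
      rwa [hL, sup_bot_eq] at this
    intro a ha b hb
    have hPc : ∀ u ∈ P, Commute u x := by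
      intro u hu
      induction hu using Submodule.span_induction with
      | mem u hu => obtain ⟨i, rfl⟩ := hu; exact Commute.pow_self x i
      | zero => exact Commute.zero_left x
      | add u w _ _ hu hw => exact hu.add_left hw
      | smul c u _ hu => exact hu.smul_left c
    suffices ∀ y ∈ P, Commute a y from (this b (hNP hb)).eq
    intro y hy
    induction hy using Submodule.span_induction with
    | mem y hy => obtain ⟨i, rfl⟩ := hy; exact (hPc a (hNP ha)).pow_right i
    | zero => exact Commute.zero_right a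
    | add y z _ _ hy hz => exact hy.add_right hz
    | smul c y _ hy => exact hy.smul_right c
  -- at least two generators
  refine comm_of_commOf_eq_bot ?_
  by_contra hC
  simp only [not_exists, not_and] at hcyc
  obtain ⟨a, haN, ha⟩ := SetLike.not_le_iff_exists.mp (fun h : N ≤ N * N => hcyc 0 N.zero_mem
    (h.trans le_sup_right))
  obtain ⟨b, hbN, hb⟩ := SetLike.not_le_iff_exists.mp (hcyc a haN)
  have hlt1 : N * N < Submodule.span k {a} ⊔ N * N := lt_of_le_of_ne le_sup_right fun h =>
    ha (h ▸ Submodule.mem_sup_left (Submodule.mem_span_singleton_self a))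
  set V := Submodule.span k {a} ⊔ N * N with hV
  have hlt2 : V < Submodule.span k {b} ⊔ V := lt_of_le_of_ne le_sup_right fun h =>
    hb (h ▸ Submodule.mem_sup_left (Submodule.mem_span_singleton_self b))
  have hleN : Submodule.span k {b} ⊔ V ≤ N :=
    sup_le ((Submodule.span_singleton_le_iff_mem _ _).mpr hbN)
      (sup_le ((Submodule.span_singleton_le_iff_mem _ _).mpr haN) hNN)
  have h1 := Submodule.finrank_lt_finrank_of_lt hlt1
  have h2 := Submodule.finrank_lt_finrank_of_lt hlt2
  have h3 := Submodule.finrank_mono hleN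
  -- the socle
  have hex : ∃ i, N ^ (i + 1) = ⊥ := hnil
  have hfind := Nat.find_spec hex
  set L := Nat.find hex with hLdef
  have hN2 : N ^ 2 ≠ ⊥ := fun h => hC (le_bot_iff.mp ((commOf_le_mul N).trans
    (le_of_eq (by rw [← pow_two, h]))))
  have hL2 : 2 ≤ L := by
    by_contra h
    apply hN2
    refine le_bot_iff.mp (le_trans ?_ hfind.le)
    rcases (show L = 0 ∨ L = 1 by omega) with h | h <;> rw [h]
    exact hanti 0 1
  have hSne : N ^ L ≠ ⊥ := by
    have := Nat.find_min hex (show L - 1 < Nat.find hex by omega)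
    rwa [show L - 1 + 1 = L by omega] at this
  obtain ⟨s, hsS, hs0⟩ := Submodule.exists_mem_ne_zero_of_ne_bot hSne
  have hL1 : N ^ L ≤ N * N := by
    have := hanti 1 (L - 2)
    rwa [show 1 + 1 + (L - 2) = L by omega, show (1 : ℕ) + 1 = 2 from rfl, pow_two] at this
  have hts : t s ≠ 0 := hnd s (hNN (hL1 hsS)) hs0 fun n hn => by
    have : s * n ∈ N ^ (L + 1) := by
      rw [Submodule.pow_succ]; exact Submodule.mul_mem_mul hsS hn
    rwa [hfind, Submodule.mem_bot] at this
  have hlt3 : commOf N < Submodule.span k {s} ⊔ commOf N := lt_of_le_of_ne le_sup_right fun h =>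
    hts (htC s (h ▸ Submodule.mem_sup_left (Submodule.mem_span_singleton_self s)))
  have h4 := Submodule.finrank_lt_finrank_of_lt hlt3
  have hle4 : Submodule.span k {s} ⊔ commOf N ≤ N * N :=
    sup_le ((Submodule.span_singleton_le_iff_mem _ _).mpr (hL1 hsS)) (commOf_le_mul N)
  have h5 := Submodule.finrank_mono hle4
  have hN2eq : Submodule.span k {s} ⊔ commOf N = N * N :=
    Submodule.eq_of_le_of_finrank_le hle4 (by omega)
  have hNeq : Submodule.span k {b} ⊔ V = N :=
    Submodule.eq_of_le_of_finrank_le hleN (by omega)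
  have hL3 : 3 ≤ L := by
    by_contra h
    have hL' : L = 2 := by omega
    rw [hL', pow_succ, pow_two] at hfind
    refine hC (le_bot_iff.mp fun c hc => ?_)
    rw [Submodule.mem_bot]
    by_contra hc0
    exact hnd c (hNN (commOf_le_mul N hc)) hc0 (fun n hn => by
      have := Submodule.mul_mem_mul (commOf_le_mul N hc) hn
      rwa [hfind, Submodule.mem_bot] at this) (htC c hc)
  have hS3 : N ^ L ≤ N ^ 3 := by
    have := hanti 2 (L - 3)
    rwa [show 2 + 1 + (L - 3) = L by omega] at this
  have hdec : ∀ x ∈ N, ∃ c d : k, x - c • a - d • b ∈ N * N := by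
    intro x hx
    rw [← hNeq, hV, Submodule.mem_sup] at hx
    obtain ⟨y, hy, z, hz, rfl⟩ := hx
    rw [Submodule.mem_sup] at hz
    obtain ⟨w, hw, u, hu, rfl⟩ := hz
    obtain ⟨d, rfl⟩ := Submodule.mem_span_singleton.mp hy
    obtain ⟨c, rfl⟩ := Submodule.mem_span_singleton.mp hw
    exact ⟨c, d, by rwa [show d • b + (c • a + u) - c • a - d • b = u by abel]⟩
  set c₀ := a * b - b * a with hc₀
  have hc₀2 : c₀ ∈ N * N := commOf_le_mul N (sub_mem_commOf haN hbN)
  have h21 : ∀ u ∈ N * N, ∀ y ∈ N, u * y ∈ N ^ 3 ∧ y * u ∈ N ^ 3 := fun u hu y hy =>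
    ⟨by rw [Submodule.pow_succ (n := 2), pow_two]; exact Submodule.mul_mem_mul hu hy,
      by rw [pow_succ' N 2, pow_two]; exact Submodule.mul_mem_mul hy hu⟩
  have hN2c : N * N ≤ Submodule.span k {c₀} ⊔ N ^ 3 := by
    rw [← hN2eq]
    refine sup_le ((Submodule.span_singleton_le_iff_mem _ _).mpr
      (Submodule.mem_sup_right (hS3 hsS))) (Submodule.span_le.mpr ?_)
    rintro _ ⟨⟨x, y⟩, rfl⟩
    obtain ⟨c, d, hu⟩ := hdec x x.2
    obtain ⟨e, f, hw⟩ := hdec y y.2
    set u := (x : R) - c • a - d • b with hudef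
    set w := (y : R) - e • a - f • b with hwdef
    have ex : (x : R) = c • a + d • b + u := by rw [hudef]; abel
    have ey : (y : R) = e • a + f • b + w := by rw [hwdef]; abel
    have key : (x : R) * y - y * x = (c * f - d * e) • c₀ +
        ((u * y - y * u) + ((c • a + d • b) * w - w * (c • a + d • b))) := by
      rw [hc₀]
      simp only [ex, ey, add_mul, mul_add, smul_mul_assoc, mul_smul_comm, smul_add, smul_smul,
        smul_sub, sub_smul]
      module
    show (x : R) * y - y * x ∈ _
    rw [key]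
    refine Submodule.add_mem_sup (Submodule.smul_mem _ _ (Submodule.mem_span_singleton_self _))
      (add_mem (sub_mem (h21 u hu y y.2).1 (h21 u hu y y.2).2) ?_)
    have hab : c • a + d • b ∈ N := add_mem (N.smul_mem c haN) (N.smul_mem d hbN)
    exact sub_mem (h21 w hw _ hab).2 (h21 w hw _ hab).1
  have hq : ∀ x ∈ N, ∀ y ∈ N, ∃ c : k, x * y - c • c₀ ∈ N ^ 3 := by
    intro x hx y hy
    obtain ⟨u, hu, w, hw, e⟩ := Submodule.mem_sup.mp (hN2c (Submodule.mul_mem_mul hx hy))
    obtain ⟨c, rfl⟩ := Submodule.mem_span_singleton.mp hu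
    exact ⟨c, by rwa [← e, add_sub_cancel_left]⟩
  have h31 : ∀ u ∈ N ^ 3, ∀ y ∈ N, u * y ∈ N ^ 4 ∧ y * u ∈ N ^ 4 := fun u hu y hy =>
    ⟨by rw [Submodule.pow_succ (n := 3)]; exact Submodule.mul_mem_mul hu hy,
      by rw [pow_succ' N 3]; exact Submodule.mul_mem_mul hy hu⟩
  set mk := (N ^ 4).mkQ with hmk
  have hrel : ∀ x ∈ N, ∀ y ∈ N, ∀ z ∈ N, ∀ c d : k, x * y - c • c₀ ∈ N ^ 3 →
      y * z - d • c₀ ∈ N ^ 3 → c • mk (c₀ * z) = d • mk (x * c₀) := by
    intro x hx y _ z hz c d hc hd
    rw [← map_smul, ← map_smul, hmk, Submodule.mkQ_apply, Submodule.mkQ_apply, Submodule.Quotient.eq]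
    have := sub_mem (h31 _ hd x hx).2 (h31 _ hc z hz).1
    convert this using 1
    simp only [mul_sub, sub_mul, smul_mul_assoc, mul_smul_comm, mul_assoc]
    abel
  obtain ⟨α, hα⟩ := hq a haN b hbN
  obtain ⟨β, hβ⟩ := hq a haN a haN
  obtain ⟨γ, hγ⟩ := hq b hbN b hbN
  have hα' : b * a - (α - 1) • c₀ ∈ N ^ 3 := by
    convert hα using 1
    rw [hc₀, sub_smul, one_smul]
    abel
  obtain ⟨hLa, hLb⟩ := eq_zero_of_assoc_relations
    (hrel a haN b hbN a haN α (α - 1) hα hα')
    (hrel b hbN a haN b hbN (α - 1) α hα' hα)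
    (hrel a haN a haN b hbN β α hβ hα)
    (hrel b hbN b hbN a haN γ (α - 1) hγ hα')
    (hrel a haN b hbN b hbN α γ hα hγ)
    (hrel b hbN a haN a haN (α - 1) β hα' hβ)
    (hrel a haN a haN a haN β β hβ hβ)
    (hrel b hbN b hbN b hbN γ γ hγ hγ)
  have hmem : a * c₀ ∈ N ^ 4 ∧ b * c₀ ∈ N ^ 4 :=
    ⟨(Submodule.Quotient.mk_eq_zero _).mp hLa, (Submodule.Quotient.mk_eq_zero _).mp hLb⟩
  have h34 : N ^ 3 ≤ N ^ 4 := by
    rw [pow_succ' N 2, pow_two, Submodule.mul_le]
    intro x hx y hy
    obtain ⟨c, d, hu⟩ := hdec x hx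
    obtain ⟨z, hz, w, hw, rfl⟩ := Submodule.mem_sup.mp (hN2c hy)
    obtain ⟨e, rfl⟩ := Submodule.mem_span_singleton.mp hz
    have h22 : ∀ u ∈ N * N, u * c₀ ∈ N ^ 4 := fun u hu' => by
      have := Submodule.mul_mem_mul hu' hc₀2
      rwa [← pow_two, ← pow_two, ← pow_mul] at this
    rw [mul_add, mul_smul_comm]
    refine add_mem (Submodule.smul_mem _ _ ?_) (h31 w hw x hx).2
    have e1 : x * c₀ = c • (a * c₀) + d • (b * c₀) + (x - c • a - d • b) * c₀ := by
      simp only [sub_mul, smul_mul_assoc]; abel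
    rw [e1]
    exact add_mem (add_mem (Submodule.smul_mem _ _ hmem.1) (Submodule.smul_mem _ _ hmem.2))
      (h22 _ hu)
  have h30 : N ^ 3 = ⊥ := hvanish 2 h34
  exact hSne (le_bot_iff.mp (hS3.trans h30.le))

end CfsgLib.Blocks.OneSimple
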