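import Cfsg.Agent.Blocks.TwoChars.SymmetricAlgebra
import Cfsg.Agent.Blocks.OneSimple.Commutative
import Mathlib.LinearAlgebra.Pi
import Mathlib.LinearAlgebra.Dimension.Constructions

/-!
# The basic algebra of a symmetric algebra with one simple module
-/

set_option autoImplicit false
set_option linter.style.haveILetI false

namespace CfsgLib.Blocks.OneSimple

open Module CfsgLib.Blocks.TwoChars

variable {k : Type*} [Field k] {R : Type*} [Ring R] [Algebra k R] [FiniteDimensional k R]

/-- Matrix units lift. -/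
theorem exists_units {n : ℕ} [NeZero n] (π : R →ₐ[k] Matrix (Fin n) (Fin n) k)
    (hπ : Function.Surjective π) (hker : ∀ x, π x = 0 ↔ x ∈ Ring.jacobson R) :
    ∃ (ε : R) (u v : Fin n → R), ε * ε = ε ∧ π ε = Matrix.single 0 0 1 ∧ (∀ i, u i * ε = u i) ∧
      (∀ i, ε * v i = v i) ∧ (∀ i j, v i * u j = if i = j then ε else 0) ∧
      ∑ i, u i * v i = 1 := by
  classical
  haveI := IsArtinianRing.of_finite k R
  set J := Ring.jacobson R with hJ
  obtain ⟨L, hL⟩ : IsNilpotent J := IsSemiprimaryRing.isNilpotent
  have hnil' : ∀ x ∈ J, IsNilpotent x := fun x hx => ⟨L, by simpa [hL] using Ideal.pow_mem_pow hx L⟩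
  obtain ⟨ε, hε, hπε⟩ := exists_isIdempotentElem_eq_of_ker_isNilpotent π.toRingHom
    (fun x hx => hnil' x ((hker x).mp hx)) (Matrix.single 0 0 (1 : k)) (hπ _)
    (by simp [IsIdempotentElem])
  replace hπε : π ε = Matrix.single 0 0 (1 : k) := hπε
  replace hε : ε * ε = ε := hε
  choose X hX using fun l : Fin n => hπ (Matrix.single l 0 (1 : k))
  choose Y hY using fun l : Fin n => hπ (Matrix.single 0 l (1 : k))
  set u : Fin n → R := fun i => X i * ε
  set w := ∑ i, u i * (ε * Y i) with hw
  have hπw : π w = 1 := by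
    rw [hw, map_sum]
    simp only [u, map_mul, hX, hY, hπε, Matrix.single_mul_single_same, mul_one]
    rw [← Matrix.diagonal_one, ← Matrix.sum_single_eq_diagonal]
  obtain ⟨U, hU⟩ : IsUnit w := by
    have h : IsNilpotent (1 - w) := hnil' _ ((hker _).mp (by rw [map_sub, map_one, hπw, sub_self]))
    simpa using h.isUnit_one_sub
  set v : Fin n → R := fun i => ε * Y i * (↑U⁻¹ : R) with hv
  have hπU : π (↑U⁻¹ : R) = 1 := by
    have := congrArg π U.mul_inv
    rwa [map_mul, hU, hπw, one_mul, map_one] at this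
  have hone : ∑ i, u i * v i = 1 := by
    simp only [hv, ← mul_assoc, ← Finset.sum_mul]
    simp only [mul_assoc (u _)]
    rw [← hw, ← hU, Units.mul_inv]
  have hue : ∀ i, u i * ε = u i := fun i => by simp only [u, mul_assoc, hε]
  have hev : ∀ i, ε * v i = v i := fun i => by simp only [hv, ← mul_assoc, hε]
  refine ⟨ε, u, v, hε, hπε, hue, hev, ?_, hone⟩
  set D : Fin n → Fin n → R := fun i j => (if i = j then ε else 0) - v i * u j with hD
  have hD2 : ∀ i j, ∑ l, D i l * D l j = D i j := by
    intro i j
    have hP : ∑ l, v i * u l * (v l * u j) = v i * u j := by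
      rw [show ∑ l, v i * u l * (v l * u j) = v i * (∑ l, u l * v l) * u j by
        rw [Finset.mul_sum, Finset.sum_mul]; simp only [mul_assoc], hone, mul_one]
    simp only [hD, sub_mul, mul_sub, ite_mul, mul_ite, zero_mul, mul_zero, Finset.sum_sub_distrib,
      hP, Finset.sum_ite_eq, Finset.sum_ite_eq', Finset.mem_univ, if_true]
    simp only [← mul_assoc, hev, hε]
    simp only [mul_assoc, hue]
    abel
  have hDJ : ∀ r i j, D i j ∈ J ^ r := by
    intro r
    induction r with
    | zero => intro i j; rw [Submodule.pow_zero, Ideal.one_eq_top]; trivial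
    | succ r ih =>
      intro i j
      rw [← hD2]
      refine Ideal.sum_mem _ fun l _ => ?_
      rw [Submodule.pow_succ]
      refine Ideal.mul_mem_mul (ih i l) ((hker _).mp ?_)
      simp only [hD, hv, u, map_sub, map_mul, apply_ite π, map_zero, hπU, hπε, hX, hY, mul_one]
      rw [Matrix.single_mul_single_same, Matrix.single_mul_single_same]
      by_cases h : l = j
      · subst h
        rw [if_pos rfl, Matrix.single_mul_single_same, one_mul, one_mul, sub_self]
      · rw [if_neg h, Matrix.single_mul_single_of_ne _ _ _ _ h, sub_zero]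
  intro i j
  have h := hDJ L i j
  rw [hL] at h
  exact (sub_eq_zero.mp (Ideal.mem_bot.mp h)).symm

variable (t : R →ₗ[k] k) (hsymm : ∀ a b, t (a * b) = t (b * a))
  (hnd : ∀ a, (∀ b, t (a * b) = 0) → a = 0)
include hsymm hnd

/-- The radical of the basic algebra, with the count of symmetric functionals. -/
theorem exists_basic {n : ℕ} [NeZero n] (π : R →ₐ[k] Matrix (Fin n) (Fin n) k)
    (hπ : Function.Surjective π) (hker : ∀ x, π x = 0 ↔ x ∈ Ring.jacobson R) :
    ∃ (ε : R) (N : Submodule k R), ε * ε = ε ∧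
      finrank k R = n ^ 2 * (finrank k N + 1) ∧
      finrank k (LinearMap.range (LinearMap.mulRight k ε)) = n * (finrank k N + 1) ∧
      finrank k N + 1 = finrank k (Subalgebra.center k R) + finrank k (commOf N) ∧
      N * N ≤ N ∧ (∃ L : ℕ, N ^ (L + 1) = ⊥) ∧
      (∀ s ∈ N, s ≠ 0 → (∀ m ∈ N, s * m = 0) → t s ≠ 0) := by
  classical
  haveI := IsArtinianRing.of_finite k R
  obtain ⟨ε, u, v, hε, hπε, hue, hev, hvu, hone⟩ := exists_units π hπ hker
  set J := Ring.jacobson R with hJ
  set cor : R →ₗ[k] R := (LinearMap.mulLeft k ε) ∘ₗ (LinearMap.mulRight k ε) with hcor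
  have hcor_apply : ∀ x, cor x = ε * (x * ε) := fun x => rfl
  set A := LinearMap.range cor with hA
  have hAiff : ∀ x, x ∈ A ↔ ε * x = x ∧ x * ε = x := by
    intro x
    constructor
    · rintro ⟨y, rfl⟩
      rw [hcor_apply]
      exact ⟨by rw [← mul_assoc, hε], by simp only [mul_assoc, hε]⟩
    · rintro ⟨h1, h2⟩
      exact ⟨x, by rw [hcor_apply, h2, h1]⟩
  have hεA : ε ∈ A := (hAiff ε).mpr ⟨hε, hε⟩
  have hAmul : ∀ a ∈ A, ∀ b ∈ A, a * b ∈ A := by
    intro a ha b hb
    rw [hAiff] at ha hb ⊢
    exact ⟨by rw [← mul_assoc, ha.1], by rw [mul_assoc, hb.2]⟩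
  have hvbu : ∀ b i j, v i * b * u j ∈ A := fun b i j => (hAiff _).mpr
    ⟨by rw [← mul_assoc, ← mul_assoc, hev], by rw [mul_assoc, hue]⟩
  set N : Submodule k R := A ⊓ J.restrictScalars k with hN
  -- dimensions
  have hεv : ∀ i j (a : R), a ∈ A → v i * (u j * a) = if i = j then a else 0 := by
    intro i j a ha
    rw [← mul_assoc, hvu, ite_mul, zero_mul, ((hAiff a).mp ha).1]
  let Φ : R ≃ₗ[k] (Fin n × Fin n → A) :=
    { toFun := fun b ij => ⟨v ij.1 * b * u ij.2, hvbu b _ _⟩
      map_add' := fun a b => by funext ij; exact Subtype.ext (by simp [mul_add, add_mul])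
      map_smul' := fun c a => by funext ij; exact Subtype.ext (by simp)
      invFun := fun f => ∑ i, ∑ j, u i * (f (i, j) : R) * v j
      left_inv := fun b => by
        simp only
        calc ∑ i, ∑ j, u i * (v i * b * u j) * v j = (∑ i, u i * v i) * b * ∑ j, u j * v j := by
              rw [Finset.sum_mul, Finset.sum_mul]
              refine Finset.sum_congr rfl fun i _ => ?_
              rw [Finset.mul_sum]
              exact Finset.sum_congr rfl fun j _ => by simp only [mul_assoc]
          _ = b := by rw [hone, one_mul, mul_one]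
      right_inv := fun f => by
        funext ij
        refine Subtype.ext ?_
        show v ij.1 * (∑ i, ∑ j, u i * (f (i, j) : R) * v j) * u ij.2 = (f ij : R)
        simp only [Finset.mul_sum, Finset.sum_mul]
        have e : ∀ i j, v ij.1 * (u i * (f (i, j) : R) * v j) * u ij.2 =
            if ij.1 = i then (if j = ij.2 then (f (i, j) : R) else 0) else 0 := by
          intro i j
          have h1 : v ij.1 * (u i * (f (i, j) : R) * v j) * u ij.2 =
              v ij.1 * (u i * (f (i, j) : R)) * (v j * u ij.2) := by simp only [mul_assoc]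
          rw [h1, hεv _ _ _ (f (i, j)).2, hvu]
          by_cases h : ij.1 = i
          · rw [if_pos h, if_pos h, mul_ite, mul_zero, ((hAiff _).mp (f (i, j)).2).2]
          · rw [if_neg h, if_neg h, zero_mul]
        simp [e, Finset.sum_ite_eq, Finset.sum_ite_eq'] }
  have hRdim : finrank k R = n ^ 2 * finrank k A := by
    rw [Φ.finrank_eq, Module.finrank_pi_fintype, Finset.sum_const, Finset.card_univ,
      Fintype.card_prod, Fintype.card_fin, smul_eq_mul, sq]
  let Ψ : LinearMap.range (LinearMap.mulRight k ε) ≃ₗ[k] (Fin n → A) :=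
    { toFun := fun x i => ⟨v i * x, (hAiff _).mpr ⟨by rw [← mul_assoc, hev], by
        obtain ⟨y, hy⟩ := x.2
        rw [← hy, LinearMap.mulRight_apply, mul_assoc, mul_assoc, hε]⟩⟩
      map_add' := fun a b => by funext i; exact Subtype.ext (by simp [mul_add])
      map_smul' := fun c a => by funext i; exact Subtype.ext (by simp)
      invFun := fun f => ⟨∑ i, u i * (f i : R), ∑ i, u i * (f i : R), by
        rw [LinearMap.mulRight_apply, Finset.sum_mul]
        exact Finset.sum_congr rfl fun i _ => by rw [mul_assoc, ((hAiff _).mp (f i).2).2]⟩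
      left_inv := fun x => Subtype.ext (by
        show ∑ i, u i * (v i * (x : R)) = x
        rw [Finset.sum_congr rfl fun i _ => (mul_assoc (u i) (v i) (x : R)).symm, ← Finset.sum_mul,
          hone, one_mul])
      right_inv := fun f => by
        funext j
        refine Subtype.ext ?_
        show v j * (∑ i, u i * (f i : R)) = f j
        rw [Finset.mul_sum]
        simp [hεv _ _ _ (f _).2] }
  have hεdim : finrank k (LinearMap.range (LinearMap.mulRight k ε)) = n * finrank k A := by
    rw [Ψ.finrank_eq, Module.finrank_pi_fintype, Finset.sum_const, Finset.card_univ,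
      Fintype.card_fin, smul_eq_mul]
  -- the radical
  have hdec : ∀ a ∈ A, a - (π a 0 0) • ε ∈ N := by
    intro a ha
    refine ⟨A.sub_mem ha (A.smul_mem _ hεA), (hker _).mp ?_⟩
    rw [map_sub, map_smul, hπε, sub_eq_zero]
    have e := congrArg π (show ε * a * ε = a by rw [((hAiff a).mp ha).1, ((hAiff a).mp ha).2])
    rw [map_mul, map_mul, hπε] at e
    conv_lhs => rw [← e]
    ext i j
    by_cases hi : i = 0 <;> by_cases hj : j = 0 <;>
      simp [hi, hj, Matrix.mul_apply, Matrix.single_apply, eq_comm]
  have hεN : ε ∉ N := fun h => by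
    have h' := (hker ε).mpr h.2
    rw [hπε] at h'
    have h00 := congrFun (congrFun h' 0) 0
    simp at h00
  have hNA : N ≤ A := inf_le_left
  have hAN : A = Submodule.span k {ε} ⊔ N := by
    refine le_antisymm (fun a ha => ?_) (sup_le ((Submodule.span_singleton_le_iff_mem _ _).mpr hεA) hNA)
    rw [show a = π a 0 0 • ε + (a - π a 0 0 • ε) by abel]
    exact Submodule.add_mem_sup (Submodule.smul_mem _ _ (Submodule.mem_span_singleton_self ε))
      (hdec a ha)
  have hε0 : ε ≠ 0 := fun h => hεN (h ▸ N.zero_mem)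
  have hAdim : finrank k A = finrank k N + 1 := by
    have h := Submodule.finrank_sup_add_finrank_inf_eq (Submodule.span k {ε}) N
    rw [← hAN, finrank_span_singleton hε0,
      show Submodule.span k {ε} ⊓ N = ⊥ by
        refine le_bot_iff.mp fun x hx => ?_
        obtain ⟨c, rfl⟩ := Submodule.mem_span_singleton.mp hx.1
        rw [Submodule.mem_bot]
        by_cases hc : c = 0
        · rw [hc, zero_smul]
        · exact absurd (by simpa [hc] using N.smul_mem c⁻¹ hx.2) hεN, finrank_bot, add_zero] at h
    omega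
  -- symmetric functionals
  have hcomm : ∀ a ∈ A, ∀ b ∈ A, a * b - b * a ∈ commOf N := by
    intro a ha b hb
    have := sub_mem_commOf (hdec a ha) (hdec b hb)
    convert this using 1
    obtain ⟨h1, h2⟩ := (hAiff a).mp ha
    obtain ⟨h3, h4⟩ := (hAiff b).mp hb
    simp only [sub_mul, mul_sub, smul_mul_assoc, mul_smul_comm, hε, h1, h2, h3, h4, smul_sub]
    rw [smul_comm (π b 0 0) (π a 0 0) ε]
    abel
  have hCA : commOf N ≤ A := Submodule.span_le.mpr (by
    rintro _ ⟨⟨a, b⟩, rfl⟩
    exact A.sub_mem (hAmul _ (hNA a.2) _ (hNA b.2)) (hAmul _ (hNA b.2) _ (hNA a.2)))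
  set C := (commOf N).comap A.subtype with hC
  have hCdim : finrank k C = finrank k (commOf N) := (Submodule.comapSubtypeEquivOfLe hCA).finrank_eq
  have hmap : ∀ l : Module.Dual k R, l ∈ (commSpan k R).dualAnnihilator →
      l ∘ₗ A.subtype ∈ C.dualAnnihilator := by
    intro l hl
    rw [mem_annihilator_commSpan] at hl
    rw [Submodule.mem_dualAnnihilator]
    intro x hx
    have : ∀ y ∈ commOf N, l y = 0 := by
      intro y hy
      induction hy using Submodule.span_induction with
      | mem y hy => obtain ⟨⟨a, b⟩, rfl⟩ := hy; simp only [map_sub, hl, sub_self]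
      | zero => exact map_zero l
      | add y z _ _ hy hz => rw [map_add, hy, hz, add_zero]
      | smul c y _ hy => rw [map_smul, hy, smul_zero]
    exact this _ hx
  let res' : (commSpan k R).dualAnnihilator →ₗ[k] C.dualAnnihilator :=
    { toFun := fun l => ⟨l.1 ∘ₗ A.subtype, hmap l.1 l.2⟩
      map_add' := fun a b => rfl
      map_smul' := fun c a => rfl }
  have hinj : Function.Injective res' := by
    intro l l' hll
    have hl₁ := mem_annihilator_commSpan.mp l.2
    have hl₂ := mem_annihilator_commSpan.mp l'.2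
    refine Subtype.ext (LinearMap.ext fun b => ?_)
    rw [show b = ∑ i, u i * (v i * b) by
      rw [Finset.sum_congr rfl fun i _ => (mul_assoc (u i) (v i) b).symm, ← Finset.sum_mul, hone,
        one_mul], map_sum, map_sum]
    refine Finset.sum_congr rfl fun i _ => ?_
    rw [hl₁, hl₂]
    exact LinearMap.congr_fun (congrArg Subtype.val hll) ⟨_, hvbu b i i⟩
  have hsurj : Function.Surjective res' := by
    rintro ⟨l, hl⟩
    rw [Submodule.mem_dualAnnihilator] at hl
    let proj : R →ₗ[k] A := cor.rangeRestrict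
    have hproj : ∀ x (hx : x ∈ A), proj x = ⟨x, hx⟩ := fun x hx => Subtype.ext (by
      show cor x = x
      rw [hcor_apply, ((hAiff x).mp hx).2, ((hAiff x).mp hx).1])
    let L : Module.Dual k R :=
      ∑ i, l ∘ₗ proj ∘ₗ (LinearMap.mulLeft k (v i) ∘ₗ LinearMap.mulRight k (u i))
    have hL : ∀ b, L b = ∑ i, l ⟨v i * b * u i, hvbu b i i⟩ := fun b => by
      simp only [L, LinearMap.sum_apply, LinearMap.comp_apply, LinearMap.mulLeft_apply,
        LinearMap.mulRight_apply]
      exact Finset.sum_congr rfl fun i _ => congrArg l ((hproj _ (by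
        rw [← mul_assoc]; exact hvbu b i i)).trans (Subtype.ext (mul_assoc _ _ _).symm))
    have hexp : ∀ a b i, v i * (a * b) * u i = ∑ j, (v i * a * u j) * (v j * b * u i) := by
      intro a b i
      calc v i * (a * b) * u i = v i * a * (∑ j, u j * v j) * (b * u i) := by
            rw [hone, mul_one]; simp only [mul_assoc]
        _ = _ := by
            rw [Finset.mul_sum, Finset.sum_mul]
            exact Finset.sum_congr rfl fun j _ => by simp only [mul_assoc]
    have hsw : ∀ a (ha : a ∈ A) b (hb : b ∈ A),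
        l ⟨a * b, hAmul a ha b hb⟩ = l ⟨b * a, hAmul b hb a ha⟩ := by
      intro a ha b hb
      have := hl (⟨a * b, hAmul a ha b hb⟩ - ⟨b * a, hAmul b hb a ha⟩) (hcomm a ha b hb)
      rwa [map_sub, sub_eq_zero] at this
    have hsumA : ∀ a b i, l ⟨v i * (a * b) * u i, hvbu _ i i⟩ =
        ∑ j, l ⟨(v i * a * u j) * (v j * b * u i), hAmul _ (hvbu a i j) _ (hvbu b j i)⟩ := by
      intro a b i
      rw [← map_sum]
      congr 1
      exact Subtype.ext (by rw [Submodule.coe_sum]; exact hexp a b i)
    refine ⟨⟨L, mem_annihilator_commSpan.mpr fun a b => ?_⟩, ?_⟩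
    · rw [hL, hL, Finset.sum_congr rfl fun i _ => hsumA a b i,
        Finset.sum_congr rfl fun i _ => hsumA b a i, Finset.sum_comm]
      exact Finset.sum_congr rfl fun i _ => Finset.sum_congr rfl fun j _ =>
        hsw _ (hvbu a j i) _ (hvbu b i j)
    · refine Subtype.ext (LinearMap.ext fun x => ?_)
      show L x.1 = l x
      obtain ⟨h1, h2⟩ := (hAiff _).mp x.2
      have hεu : ∀ i, ε * u i ∈ A := fun i => (hAiff _).mpr
        ⟨by rw [← mul_assoc, hε], by rw [mul_assoc, hue]⟩
      have hvx : ∀ i, v i * x.1 ∈ A := fun i => (hAiff _).mpr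
        ⟨by rw [← mul_assoc, hev], by rw [mul_assoc, h2]⟩
      rw [hL]
      have h3 : ∀ i, l ⟨v i * x.1 * u i, hvbu _ i i⟩ =
          l ⟨ε * u i * (v i * x.1), hAmul _ (hεu i) _ (hvx i)⟩ := by
        intro i
        rw [← hsw _ (hvx i) _ (hεu i)]
        congr 1
        exact Subtype.ext (by
          show v i * x.1 * u i = v i * x.1 * (ε * u i)
          rw [← mul_assoc (v i * x.1), mul_assoc (v i) x.1 ε, h2])
      rw [Finset.sum_congr rfl fun i _ => h3 i, ← map_sum]
      congr 1
      refine Subtype.ext ?_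
      rw [Submodule.coe_sum]
      calc ∑ i, ε * u i * (v i * x.1) = ε * (∑ i, u i * v i) * x.1 := by
            rw [Finset.mul_sum, Finset.sum_mul]
            exact Finset.sum_congr rfl fun i _ => by simp only [mul_assoc]
        _ = x.1 := by rw [hone, mul_one, h1]
  have hzdim : finrank k (Subalgebra.center k R) + finrank k C = finrank k A := by
    rw [← finrank_annihilator_commSpan hsymm hnd, (LinearEquiv.ofBijective res' ⟨hinj, hsurj⟩).finrank_eq,
      add_comm]
    exact Subspace.finrank_add_finrank_dualAnnihilator_eq C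
  refine ⟨ε, N, hε, by rw [hRdim, hAdim], by rw [hεdim, hAdim], by omega, ?_, ?_, ?_⟩
  · rw [Submodule.mul_le]
    exact fun a ha b hb => ⟨hAmul a ha.1 b hb.1, J.mul_mem_left a hb.2⟩
  · obtain ⟨L, hL⟩ : IsNilpotent J := IsSemiprimaryRing.isNilpotent
    refine ⟨L, le_bot_iff.mp ?_⟩
    have hpow : ∀ i, N ^ (i + 1) ≤ (J ^ i).restrictScalars k := by
      intro i
      induction i with
      | zero =>
        intro x _
        show x ∈ J ^ 0
        rw [Submodule.pow_zero, Ideal.one_eq_top]
        trivial
      | succ i ih =>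
        rw [Submodule.pow_succ, Submodule.mul_le]
        intro a ha b hb
        show a * b ∈ J ^ (i + 1)
        rw [Submodule.pow_succ]
        exact Ideal.mul_mem_mul (ih ha) hb.2
    refine (hpow L).trans ?_
    rw [hL]
    exact fun x hx => hx
  · intro s hs hs0 hann hts
    refine hs0 (hnd s fun r => ?_)
    obtain ⟨h1, h2⟩ := (hAiff s).mp hs.1
    have ha : ε * (r * ε) ∈ A := ⟨r, rfl⟩
    calc t (s * r) = t (s * (ε * (r * ε))) := by
          conv_lhs => rw [← h1, mul_assoc, hsymm, mul_assoc]
          rw [← mul_assoc s ε, h2]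
      _ = 0 := by
          have e : s * (ε * (r * ε)) = π (ε * (r * ε)) 0 0 • s := by
            rw [← sub_eq_zero]
            have := hann _ (hdec _ ha)
            rwa [mul_sub, mul_smul_comm, h2] at this
          rw [e, map_smul, hts, smul_zero]

/-- With at most four symmetric functionals the basic algebra is commutative. -/
theorem exists_dims {n : ℕ} [NeZero n] (π : R →ₐ[k] Matrix (Fin n) (Fin n) k)
    (hπ : Function.Surjective π) (hker : ∀ x, π x = 0 ↔ x ∈ Ring.jacobson R)
    (hz : finrank k (Subalgebra.center k R) ≤ 4) :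
    ∃ ε : R, ε * ε = ε ∧ finrank k R = n ^ 2 * finrank k (Subalgebra.center k R) ∧
      finrank k (LinearMap.range (LinearMap.mulRight k ε)) =
        n * finrank k (Subalgebra.center k R) := by
  obtain ⟨ε, N, hε, hR, hP, hd, hNN, hnil, hs⟩ := exists_basic t hsymm hnd π hπ hker
  have hcomm := comm_of_finrank_le hNN hnil t (fun a _ b _ => hsymm a b) hs (by omega)
  have h0 : commOf N = ⊥ := le_bot_iff.mp (Submodule.span_le.mpr (by
    rintro _ ⟨⟨a, b⟩, rfl⟩
    simp only [SetLike.mem_coe, Submodule.mem_bot, hcomm _ a.2 _ b.2, sub_self]))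
  rw [h0, finrank_bot, add_zero] at hd
  exact ⟨ε, hε, by rw [hR, hd], by rw [hP, hd]⟩

end CfsgLib.Blocks.OneSimple
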