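import Cfsg.Agent.Blocks.TwoChars.BlockAlgebra
import Cfsg.Agent.Blocks.OneSimple.Corner
import Cfsg.Agent.Blocks.OneSimple.Projective
import Cfsg.Agent.Blocks.Orth.Subsection
import Cfsg.Agent.Eq.Def_BlockRank

/-!
# Blocks with one irreducible Brauer character

If the regular restrictions of the characters of a block span a line then the block algebra has one
simple module; if moreover the block has at most four characters then its basic algebra is
commutative, so the sum of the squared degrees is `n² k(B)` and `|G|_p` divides `n k(B)`.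
-/

set_option autoImplicit false
set_option linter.style.haveILetI false
open scoped MonoidAlgebra
open Cfsg

namespace CfsgLib.Blocks.OneSimple

open CfsgLib.Blocks CfsgLib.Blocks.TwoChars Module

universe u

variable {G : Type u} [Group G] [Fintype G] {p : ℕ} [Fact p.Prime] {M : Ideal AlgInt} [M.IsMaximal]
  [CharP (kres M) p]

/-- Two vectors with local integral entries in a line reduce to two vectors with vanishing minors. -/
theorem minor_res_eq_zero {ι : Type*} {v : ι → ℂ} {c d : ℂ} {x y x' y' : localRing M} {i j : ι}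
    (hx : (x : ℂ) = c * v i) (hy : (y : ℂ) = c * v j) (hx' : (x' : ℂ) = d * v i)
    (hy' : (y' : ℂ) = d * v j) : res M x * res M y' = res M y * res M x' := by
  rw [← map_mul, ← map_mul]
  congr 1
  refine Subtype.ext ?_
  push_cast
  rw [hx, hy, hx', hy']
  ring

omit [Fact p.Prime] [CharP (kres M) p] in
/-- The values of two symmetric functionals living on a block of rank one have vanishing minors. -/
theorem minor_eq_zero {B : Set (IrrCharacter G)} (hB : IsPBlock M B)
    (hl : blockRank p B = 1) (f₁ f₂ : (kres M)[G] →ₗ[kres M] kres M)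
    (h₁ : ∀ a b, f₁ (a * b) = f₁ (b * a)) (h₂ : ∀ a b, f₂ (a * b) = f₂ (b * a))
    (he₁ : ∀ a, f₁ (a * topEl M B) = f₁ a) (he₂ : ∀ a, f₂ (a * topEl M B) = f₂ a) {s t : G}
    (hs : IsPRegular p s) (ht : IsPRegular p t) :
    f₁ (MonoidAlgebra.single s 1) * f₂ (MonoidAlgebra.single t 1) =
      f₁ (MonoidAlgebra.single t 1) * f₂ (MonoidAlgebra.single s 1) := by
  classical
  haveI := Module.Finite.span_of_finite ℂ
    (A := (fun χ : IrrCharacter G => pRegularPart p (χ : G → ℂ)) '' B) (Set.toFinite _)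
  choose lift hlift using res_surjective (M := M)
  have key : ∀ f : (kres M)[G] →ₗ[kres M] kres M, (∀ a b, f (a * b) = f (b * a)) →
      (∀ a, f (a * topEl M B) = f a) →
      ∃ Θ : G → localRing M, (∀ u, IsPRegular p u → res M (Θ u) = f (MonoidAlgebra.single u 1)) ∧
        pRegularPart p (fun u => (Θ u : ℂ)) ∈
          Submodule.span ℂ ((fun χ : IrrCharacter G => pRegularPart p (χ : G → ℂ)) '' B) := by
    intro f hf hfe
    let θ : G → ℂ := fun u => (lift (f (MonoidAlgebra.single u 1)) : ℂ)
    have hθ : IsClassFunction G θ := by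
      intro x y
      simp only [θ]
      congr 2
      rw [show MonoidAlgebra.single (y * x * y⁻¹) (1 : kres M) =
          MonoidAlgebra.single y 1 * MonoidAlgebra.single (x * y⁻¹) 1 by
        rw [MonoidAlgebra.single_mul_single, mul_one, mul_assoc], hf,
        MonoidAlgebra.single_mul_single, mul_one, inv_mul_cancel_right]
    refine ⟨fun u => ∑ g : G, coeffO hB g * lift (f (MonoidAlgebra.single (g * u) 1)),
      fun u _ => ?_, ?_⟩
    · rw [map_sum, ← hfe (MonoidAlgebra.single u 1), hf]
      simp only [map_mul, res_coeffO, hlift]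
      conv_rhs => rw [← MonoidAlgebra.sum_coeff_single (topEl M B)]
      rw [Finsupp.sum_fintype _ _ (fun _ => MonoidAlgebra.single_zero _), Finset.sum_mul, map_sum]
      refine Finset.sum_congr rfl fun g _ => ?_
      rw [← smul_eq_mul, ← map_smul, MonoidAlgebra.single_mul_single, mul_one,
        MonoidAlgebra.smul_single, smul_eq_mul, mul_one]
    · have e : (fun u => ((∑ g : G, coeffO hB g *
          lift (f (MonoidAlgebra.single (g * u) 1)) : localRing M) : ℂ)) = blockPart B θ := by
        funext u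
        rw [blockPart_eq_sum_blockCoeff B hθ]
        push_cast
        rfl
      rw [e]
      exact pRegularPart_blockPart_mem B θ
  obtain ⟨Θ₁, hΘ₁, hm₁⟩ := key f₁ h₁ he₁
  obtain ⟨Θ₂, hΘ₂, hm₂⟩ := key f₂ h₂ he₂
  obtain ⟨v, hv⟩ := finrank_le_one_iff.mp (le_of_eq hl)
  obtain ⟨c, hc⟩ := hv ⟨_, hm₁⟩
  obtain ⟨d, hd⟩ := hv ⟨_, hm₂⟩
  have hcu : ∀ u, IsPRegular p u → (Θ₁ u : ℂ) = c * (v : G → ℂ) u := fun u hu => by
    have := congrFun (congrArg Subtype.val hc) u
    simpa [pRegularPart, hu] using this.symm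
  have hdu : ∀ u, IsPRegular p u → (Θ₂ u : ℂ) = d * (v : G → ℂ) u := fun u hu => by
    have := congrFun (congrArg Subtype.val hd) u
    simpa [pRegularPart, hu] using this.symm
  rw [← hΘ₁ s hs, ← hΘ₁ t ht, ← hΘ₂ s hs, ← hΘ₂ t ht]
  exact minor_res_eq_zero (hcu s hs) (hcu t ht) (hdu s hs) (hdu t ht)

/-- The trace of a matrix representation sees only the regular part. -/
theorem trace_regular {A : Type*} [Ring A] [Algebra (kres M) A] {n : ℕ}
    (π : A →ₐ[kres M] Matrix (Fin n) (Fin n) (kres M)) {u s : A} {j : ℕ} (hu : u ^ p ^ j = 1)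
    (hus : Commute u s) : (π (u * s)).trace = (π s).trace := by
  rcases Nat.eq_zero_or_pos n with rfl | hn
  · simp [Matrix.trace]
  haveI : Nonempty (Fin n) := ⟨⟨0, hn⟩⟩
  have hnil : IsNilpotent (π (u * s) - π s) := by
    have e : π (u * s) - π s = (π u - 1) * π s := by rw [map_mul, sub_mul, one_mul]
    rw [e]
    refine (hus.map π).sub_left (Commute.one_left _) |>.isNilpotent_mul_right ⟨p ^ j, ?_⟩
    rw [sub_pow_char_pow_of_commute (p := p) (n := j) (Commute.one_right _), ← map_pow, hu, map_one,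
      one_pow, sub_self]
  have := (Matrix.isNilpotent_trace_of_isNilpotent hnil).eq_zero
  rwa [Matrix.trace_sub, sub_eq_zero] at this

/-- The consequences of one simple module and at most four characters. -/
theorem exists_dims_block (hM : IsPModular p M) {B : Set (IrrCharacter G)} (hB : IsPBlock M B)
    (hl : blockRank p B = 1) (hk : Nat.card B ≤ 4) :
    ∃ n : ℕ, n ≠ 0 ∧ ∑ χ ∈ B.toFinite.toFinset, charDegree (χ : G → ℂ) ^ 2 = n ^ 2 * Nat.card B ∧
      ∀ Q : Subgroup G, IsPGroup p Q → Nat.card Q ∣ n * Nat.card B := by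
  classical
  haveI : Fintype (ConjClasses G) := Fintype.ofFinite _
  haveI : FiniteDimensional (kres M) (kres M)[G] :=
    Module.Finite.equiv (MonoidAlgebra.coeffLinearEquiv (kres M) (M := G)).symm
  set e := topEl M B with hedef
  have he : IsBlockIdem ⊤ e := isBlockIdem_topEl hB
  have hecomm : ∀ a, e * a = a * e := fun a =>
    (commute_of_isFixedBy (isSupportedOn_top a) he.1.2).symm.eq
  haveI : (killIdeal e).IsTwoSided := ⟨fun {a} b ha => by
    rw [mem_killIdeal] at ha ⊢
    rw [mul_assoc, ← hecomm, ← mul_assoc, ha, zero_mul]⟩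
  let mk := Ideal.Quotient.mkₐ (kres M) (killIdeal e)
  have hmk : Function.Surjective mk := Ideal.Quotient.mkₐ_surjective _ _
  haveI : FiniteDimensional (kres M) ((kres M)[G] ⧸ killIdeal e) :=
    Module.Finite.of_surjective mk.toLinearMap hmk
  have hmk_eq : ∀ a b, mk a = mk b ↔ a * e = b * e := fun a b => by
    rw [show mk a = Ideal.Quotient.mk (killIdeal e) a from rfl,
      show mk b = Ideal.Quotient.mk (killIdeal e) b from rfl, Ideal.Quotient.eq, mem_killIdeal,
      sub_mul, sub_eq_zero]
  haveI : Nontrivial ((kres M)[G] ⧸ killIdeal e) := ⟨⟨mk 1, mk 0, fun h => he.ne_zero (by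
    simpa using (hmk_eq 1 0).mp h)⟩⟩
  obtain ⟨s, hs⟩ := mk.toLinearMap.exists_rightInverse_of_surjective (LinearMap.range_eq_top.mpr hmk)
  let t : ((kres M)[G] ⧸ killIdeal e) →ₗ[kres M] kres M :=
    ((Finsupp.lapply (1 : G)) ∘ₗ (MonoidAlgebra.coeffLinearEquiv (kres M)).toLinearMap ∘ₗ
      LinearMap.mulRight (kres M) e) ∘ₗ s
  have ht : ∀ a, t (mk a) = (a * e).coeff 1 := fun a => by
    show (s (mk a) * e).coeff 1 = _
    rw [(hmk_eq _ a).mp (LinearMap.congr_fun hs (mk a))]
  have hswap : ∀ a b : (kres M)[G], (a * b).coeff 1 = (b * a).coeff 1 := by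
    intro a b
    rw [MonoidAlgebra.coeff_mul_apply_left, MonoidAlgebra.coeff_mul_apply_right,
      Finsupp.sum_fintype _ _ (fun _ => zero_mul _), Finsupp.sum_fintype _ _ (fun _ => mul_zero _)]
    refine Finset.sum_congr rfl fun x _ => ?_
    rw [mul_one, one_mul, mul_comm]
  have hsymm : ∀ a b, t (a * b) = t (b * a) := by
    intro a b
    obtain ⟨a, rfl⟩ := hmk a
    obtain ⟨b, rfl⟩ := hmk b
    rw [← map_mul, ← map_mul, ht, ht, mul_assoc, hswap, mul_assoc, hecomm, ← mul_assoc]
  have hnd : ∀ a, (∀ b, t (a * b) = 0) → a = 0 := by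
    intro a
    obtain ⟨a, rfl⟩ := hmk a
    intro h
    rw [← map_zero mk, hmk_eq, zero_mul]
    refine MonoidAlgebra.ext (Finsupp.ext fun g => ?_)
    have := h (mk (MonoidAlgebra.single g⁻¹ 1))
    rw [← map_mul, ht, mul_assoc, ← hecomm, ← mul_assoc, MonoidAlgebra.coeff_mul_single_apply] at this
    simpa using this
  -- the algebra
  let iso : (G → kres M) ≃ₗ[kres M] (kres M)[G] :=
    (Finsupp.linearEquivFunOnFinite (kres M) (kres M) G).symm.trans
      (MonoidAlgebra.coeffLinearEquiv (kres M)).symm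
  have hiso : ∀ u g, (iso u).coeff g = u g := fun u g => rfl
  have hmat : ∀ u g, ((algMatrix hB).map (res M)).mulVec u g = (iso u * e).coeff g := by
    intro u g
    rw [MonoidAlgebra.coeff_mul_apply_left, Finsupp.sum_fintype _ _ (fun _ => zero_mul _)]
    refine Finset.sum_congr rfl fun x _ => ?_
    show res M (coeffO hB (x⁻¹ * g)) * u x = _
    rw [res_coeffO, hiso, mul_comm, hedef]
  have hdimR : finrank (kres M) ((kres M)[G] ⧸ killIdeal e) =
      ∑ χ ∈ B.toFinite.toFinset, charDegree (χ : G → ℂ) ^ 2 := by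
    rw [← rank_map_res_eq (algMatrix_mul_self hB) (trace_algMatrix hB)]
    let Ψ : (G → kres M) →ₗ[kres M] ((kres M)[G] ⧸ killIdeal e) := mk.toLinearMap ∘ₗ iso.toLinearMap
    have hΨ : Function.Surjective Ψ := hmk.comp iso.surjective
    have hker : LinearMap.ker Ψ = LinearMap.ker ((algMatrix hB).map (res M)).mulVecLin := by
      ext u
      rw [LinearMap.mem_ker, LinearMap.mem_ker, Matrix.mulVecLin_apply]
      show mk (iso u) = 0 ↔ _
      rw [← map_zero mk, hmk_eq, zero_mul]
      constructor
      · intro h; funext g; rw [hmat, h]; rfl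
      · intro h; exact MonoidAlgebra.ext (Finsupp.ext fun g => by rw [← hmat, h]; rfl)
    have h1 := LinearMap.finrank_range_add_finrank_ker Ψ
    have h2 := LinearMap.finrank_range_add_finrank_ker ((algMatrix hB).map (res M)).mulVecLin
    rw [LinearMap.range_eq_top.mpr hΨ, finrank_top, hker] at h1
    rw [Matrix.rank]
    omega
  -- the centre
  let cls : (ConjClasses G → kres M) →ₗ[kres M] (kres M)[G] :=
    iso.toLinearMap ∘ₗ LinearMap.funLeft (kres M) (kres M) ConjClasses.mk
  have hcls : ∀ u g, (cls u).coeff g = u (ConjClasses.mk g) := fun u g => rfl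
  have hclsc : ∀ u, cls u ∈ centerIn (kres M) ⊤ := fun u =>
    ⟨isSupportedOn_top _, fun x _ g => by
      rw [hcls, hcls, ConjClasses.mk_eq_mk_iff_isConj.mpr
        (isConj_iff.mpr ⟨x, rfl⟩ : IsConj g (x * g * x⁻¹))]⟩
  have hclsmat : ∀ u g, (e * cls u).coeff g =
      ((centreMatrix hB).map (res M)).mulVec u (ConjClasses.mk g) := by
    intro u g
    rw [centreMatrix_mulVec, ← sum_coeffO_class, MonoidAlgebra.coeff_mul_apply_left,
      Finsupp.sum_fintype _ _ (fun _ => zero_mul _)]
    exact Finset.sum_congr rfl fun x _ => by rw [res_coeffO, hcls]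
  have hdimZ : finrank (kres M) (Subalgebra.center (kres M) ((kres M)[G] ⧸ killIdeal e)) = Nat.card B := by
    let Ψ : (ConjClasses G → kres M) →ₗ[kres M] ((kres M)[G] ⧸ killIdeal e) :=
      mk.toLinearMap ∘ₗ cls
    have hrange : LinearMap.range Ψ =
        (Subalgebra.center (kres M) ((kres M)[G] ⧸ killIdeal e)).toSubmodule := by
      refine le_antisymm ?_ fun z hz => ?_
      · rintro _ ⟨u, rfl⟩
        refine (Subalgebra.mem_center_iff (R := kres M)).mpr fun b => ?_
        obtain ⟨b, rfl⟩ := hmk b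
        show mk b * mk (cls u) = mk (cls u) * mk b
        rw [← map_mul, ← map_mul, (commute_of_isFixedBy (isSupportedOn_top b) (hclsc u).2).eq]
      · obtain ⟨a, rfl⟩ := hmk z
        have hc : ∀ b, b * (a * e) = a * e * b := by
          intro b
          have h := (Subalgebra.mem_center_iff (R := kres M)).mp hz (mk b)
          rw [← map_mul, ← map_mul, hmk_eq] at h
          rw [← mul_assoc, h, mul_assoc, mul_assoc, hecomm]
        have hcoe := coeff_conj_of_mem_center (M := M) (x := a * e)
          ((Subalgebra.mem_center_iff (R := kres M)).mpr hc)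
        refine ⟨fun C => (a * e).coeff C.out, ?_⟩
        show mk (cls _) = mk a
        rw [hmk_eq]
        have hae : cls (fun C => (a * e).coeff C.out) = a * e := by
          refine MonoidAlgebra.ext (Finsupp.ext fun g => ?_)
          rw [hcls]
          obtain ⟨c, hc⟩ := isConj_iff.mp (ConjClasses.mk_eq_mk_iff_isConj.mp
            (Quotient.out_eq (ConjClasses.mk g)))
          conv_rhs => rw [← hc]
          exact (hcoe _ c).symm
        rw [hae, mul_assoc, he.idem]
    have hker : LinearMap.ker Ψ = LinearMap.ker ((centreMatrix hB).map (res M)).mulVecLin := by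
      ext u
      rw [LinearMap.mem_ker, LinearMap.mem_ker, Matrix.mulVecLin_apply]
      show mk (cls u) = 0 ↔ _
      rw [← map_zero mk, hmk_eq, zero_mul, ← hecomm]
      constructor
      · intro h
        funext C
        have := congrArg (fun a : (kres M)[G] => a.coeff C.out) h
        simp only [hclsmat] at this
        rwa [show ConjClasses.mk C.out = C from Quotient.out_eq C] at this
      · intro h; exact MonoidAlgebra.ext (Finsupp.ext fun g => by rw [hclsmat, h]; rfl)
    have h1 := LinearMap.finrank_range_add_finrank_ker Ψ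
    have h2 := LinearMap.finrank_range_add_finrank_ker ((centreMatrix hB).map (res M)).mulVecLin
    have h3 := rank_map_res_eq (centreMatrix_mul_self hB) (trace_centreMatrix hB)
    rw [hrange, hker] at h1
    rw [Matrix.rank] at h3
    have h4 : finrank (kres M) (Subalgebra.center (kres M) ((kres M)[G] ⧸ killIdeal e)) =
      finrank (kres M)
        (Subalgebra.center (kres M) ((kres M)[G] ⧸ killIdeal e)).toSubmodule := rfl
    omega
  -- one simple module
  haveI := IsArtinianRing.of_finite (kres M) ((kres M)[G] ⧸ killIdeal e)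
  set J := Ring.jacobson ((kres M)[G] ⧸ killIdeal e) with hJ
  obtain ⟨ns, d, hd, ⟨E⟩⟩ := IsSemisimpleRing.exists_algEquiv_pi_matrix_of_isAlgClosed
    (F := kres M) (R := ((kres M)[G] ⧸ killIdeal e) ⧸ J)
  let π : ((kres M)[G] ⧸ killIdeal e) →ₐ[kres M] Π i, Matrix (Fin (d i)) (Fin (d i)) (kres M) :=
    E.toAlgHom.comp (Ideal.Quotient.mkₐ (kres M) J)
  have hπs : Function.Surjective π := E.surjective.comp (Ideal.Quotient.mkₐ_surjective (kres M) J)
  have hπk : ∀ x, π x = 0 ↔ x ∈ J := fun x => by
    show E (Ideal.Quotient.mkₐ (kres M) J x) = 0 ↔ _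
    rw [map_eq_zero_iff E E.injective, Ideal.Quotient.mkₐ_eq_mk, Ideal.Quotient.eq_zero_iff_mem]
  haveI : Nontrivial (((kres M)[G] ⧸ killIdeal e) ⧸ J) :=
    Ideal.Quotient.nontrivial_iff.mpr (Ring.jacobson_lt_top _).ne
  let πi := fun i : Fin ns => ((Pi.evalAlgHom (kres M)
    (fun i => Matrix (Fin (d i)) (Fin (d i)) (kres M)) i).comp π).comp mk
  let fi : Fin ns → (kres M)[G] →ₗ[kres M] kres M := fun i =>
    (Matrix.traceLinearMap (Fin (d i)) (kres M) (kres M)) ∘ₗ (πi i).toLinearMap
  have hfi : ∀ i x, fi i x = (πi i x).trace := fun i x => rfl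
  have hfs : ∀ i a b, fi i (a * b) = fi i (b * a) := fun i a b => by
    rw [hfi, hfi, map_mul, map_mul, Matrix.trace_mul_comm]
  have hfe : ∀ i a, fi i (a * topEl M B) = fi i a := fun i a => by
    have : mk (a * e) = mk a := (hmk_eq _ _).mpr (by rw [mul_assoc, he.idem])
    show (π (mk (a * e)) i).trace = (π (mk a) i).trace
    rw [this]
  have hreg : ∀ g : G, ∃ g' : G, IsPRegular p g' ∧
      ∀ i, fi i (MonoidAlgebra.single g 1) = fi i (MonoidAlgebra.single g' 1) := by
    intro g
    obtain ⟨u, hu⟩ := exists_isPPart hM.1 g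
    obtain ⟨w, hw, hcomm, ⟨j, hj⟩, hreg⟩ := hu
    refine ⟨w, hreg, fun i => ?_⟩
    rw [hfi, hfi, ← hw,
      show MonoidAlgebra.single (u * w) (1 : kres M) =
        MonoidAlgebra.single u 1 * MonoidAlgebra.single w 1 by
        rw [MonoidAlgebra.single_mul_single, mul_one]]
    refine trace_regular (p := p) (πi i) (j := j) ?_ ?_
    · rw [MonoidAlgebra.single_pow, one_pow, ← hj, pow_orderOf_eq_one, MonoidAlgebra.one_def]
    · show _ * _ = _ * _
      rw [MonoidAlgebra.single_mul_single, MonoidAlgebra.single_mul_single, hcomm.eq]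
  choose red hred hredf using hreg
  have hminor : ∀ i j a b, fi i a * fi j b = fi i b * fi j a := by
    intro i j a b
    induction a using MonoidAlgebra.induction_linear with
    | zero => simp
    | add a a' ha ha' => rw [map_add, map_add, add_mul, ha, ha', ← mul_add]
    | single g c =>
      induction b using MonoidAlgebra.induction_linear with
      | zero => simp
      | add b b' hb hb' => rw [map_add, map_add, mul_add, hb, hb', ← add_mul]
      | single h c' =>
        rw [show MonoidAlgebra.single g c = c • MonoidAlgebra.single g (1 : kres M) by simp,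
          show MonoidAlgebra.single h c' = c' • MonoidAlgebra.single h (1 : kres M) by simp]
        simp only [map_smul, smul_eq_mul, hredf g, hredf h]
        have h4 := minor_eq_zero hB hl (fi i) (fi j) (hfs i) (hfs j) (hfe i) (hfe j) (hred g)
          (hred h)
        linear_combination (c * c') * h4
  have hns0 : 0 < ns := by
    rcases Nat.eq_zero_or_pos ns with rfl | h
    · exact absurd (E.injective (Subsingleton.elim (E 0) (E 1))) zero_ne_one
    · exact h
  have hns : ns = 1 := by
    by_contra hne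
    have h2 : 1 < ns := by omega
    haveI := hd ⟨0, hns0⟩
    haveI := hd ⟨1, h2⟩
    obtain ⟨r₀, hr₀⟩ := hπs (Pi.single ⟨0, hns0⟩ (Matrix.single 0 0 (1 : kres M)))
    obtain ⟨a, rfl⟩ := hmk r₀
    obtain ⟨r₁, hr₁⟩ := hπs (Pi.single ⟨1, h2⟩ (Matrix.single 0 0 (1 : kres M)))
    obtain ⟨b, rfl⟩ := hmk r₁
    have h := hminor ⟨0, hns0⟩ ⟨1, h2⟩ a b
    have e1 : fi ⟨0, hns0⟩ a = 1 := by
      show (π (mk a) _).trace = 1
      rw [hr₀, Pi.single_eq_same, Matrix.trace_single_eq_same]
    have e2 : fi ⟨1, h2⟩ b = 1 := by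
      show (π (mk b) _).trace = 1
      rw [hr₁, Pi.single_eq_same, Matrix.trace_single_eq_same]
    have e3 : fi ⟨1, h2⟩ a = 0 := by
      show (π (mk a) _).trace = 0
      rw [hr₀, Pi.single_eq_of_ne (by simp), Matrix.trace_zero]
    rw [e1, e2, e3, mul_zero, mul_one] at h
    exact one_ne_zero h
  subst hns
  haveI := hd 0
  let π₀ := (Pi.evalAlgHom (kres M) (fun i => Matrix (Fin (d i)) (Fin (d i)) (kres M)) 0).comp π
  have hπ₀s : Function.Surjective π₀ := fun m => by
    obtain ⟨r, hr⟩ := hπs (Pi.single 0 m)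
    exact ⟨r, by simp [π₀, hr]⟩
  have hπ₀k : ∀ x, π₀ x = 0 ↔ x ∈ J := fun x => by
    rw [← hπk]
    refine ⟨fun h => funext fun i => ?_, fun h => by simp [π₀, h]⟩
    rw [Fin.fin_one_eq_zero i]
    exact h
  obtain ⟨ε, hε, hdimB, hdimP⟩ := exists_dims t hsymm hnd π₀ hπ₀s hπ₀k (by rw [hdimZ]; exact hk)
  rw [hdimZ] at hdimB hdimP
  refine ⟨d 0, NeZero.ne _, by rw [← hdimR, hdimB], fun Q hQ => ?_⟩
  rw [← hdimP]
  obtain ⟨a, ha⟩ := hmk ε
  set f := a * e with hf
  have hmkf : mk f = ε := by
    rw [hf, (hmk_eq (a * e) a).mpr (by rw [mul_assoc, he.idem]), ha]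
  have hfe' : f * e = f := by rw [hf, mul_assoc, he.idem]
  have hff : f * f = f := by
    have h : mk (f * f) = mk f := by rw [map_mul, hmkf, hε]
    rw [hmk_eq, mul_assoc, hfe'] at h
    exact h
  convert card_dvd_finrank (k := kres M) hQ hff using 1
  refine (LinearEquiv.ofBijective ((mk.toLinearMap ∘ₗ (LinearMap.range
    (LinearMap.mulRight (kres M) f)).subtype).codRestrict (LinearMap.range
      (LinearMap.mulRight (kres M) ε)) ?_) ⟨?_, ?_⟩).finrank_eq.symm
  · rintro ⟨_, x, rfl⟩
    exact ⟨mk x, by simp [hmkf]⟩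
  · rintro ⟨_, x, rfl⟩ ⟨_, y, rfl⟩ h
    have h' := congrArg Subtype.val h
    simp only [LinearMap.codRestrict_apply, LinearMap.comp_apply, Submodule.subtype_apply,
      LinearMap.mulRight_apply, AlgHom.toLinearMap_apply, hmk_eq, mul_assoc, hfe'] at h'
    exact Subtype.ext h'
  · rintro ⟨_, y, rfl⟩
    obtain ⟨x, rfl⟩ := hmk y
    exact ⟨⟨x * f, x, rfl⟩, Subtype.ext (by simp [hmkf])⟩

end CfsgLib.Blocks.OneSimple
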